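import Mathlib
import Cfsg.Agent.PLocal.LX1

/-! Large extraspecial subgroups: sections and global structure. -/

set_option autoImplicit false

namespace Cfsg.Agent.PLocal

open Cfsg Subgroup LocalEven Fischer
open scoped commutatorElement

variable {G : Type*} [Group G] {Q Q' : Subgroup G} {z s : G}

theorem odd_compl {Y : Type*} [Group Y] [Finite Y] {w : Y} (hw : orderOf w = 2)
    (h4 : ¬ 4 ∣ Nat.card Y) :
    ∃ N : Subgroup Y, N.Normal ∧ Odd (Nat.card N) ∧ ∀ d, d ∈ N ∨ d * w ∈ N := by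
  haveI : Fact (Nat.Prime 2) := ⟨Nat.prime_two⟩
  have hw2 : w * w = 1 := by rw [← sq, ← hw, pow_orderOf_eq_one]
  obtain ⟨S, hS⟩ := (isPGroup_zpowers_of_orderOf (p := 2) (k := 1) (by simpa using hw)).exists_le_sylow
  have hc : Nat.card S = 2 := by
    obtain ⟨k, hk⟩ := S.isPGroup'.exists_card_eq
    have h1 := card_dvd_of_le hS
    have h2 := card_subgroup_dvd_card (S : Subgroup Y)
    rw [Nat.card_zpowers, hw] at h1
    match k, hk with
    | 0, hk => rw [hk] at h1; omega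
    | 1, hk => simpa using hk
    | k + 2, hk => exact (h4 ((Dvd.intro (2 ^ k) (by rw [hk]; ring)).trans h2)).elim
  have he : zpowers w = S := eq_of_le_of_card_le hS (by rw [hc, Nat.card_zpowers, hw])
  have hcy : IsCyclic S := isCyclic_of_prime_card hc
  have h2 : 2 ∣ Nat.card Y := hw ▸ orderOf_dvd_natCard w
  have hK := IsCyclic.isComplement' ((Nat.minFac_eq_two_iff _).mpr h2) hcy
  refine ⟨(MonoidHom.transferSylow S (hcy.normalizer_le_centralizer
    ((Nat.minFac_eq_two_iff _).mpr h2))).ker, inferInstance, ?_, fun d => ?_⟩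
  · rw [← hK.index_eq_card]
    exact Nat.odd_iff.2 (Nat.two_dvd_ne_zero.1 S.not_dvd_index)
  · obtain ⟨⟨k, p⟩, e, -⟩ := hK.existsUnique d
    rcases (mem_zpowers_two hw2).1 (he.ge p.2) with e1 | e1 <;> simp only [e1] at e
    · exact Or.inl (e ▸ (mul_one (k : Y)).symm ▸ k.2)
    · exact Or.inr (by rw [← e, mul_assoc, hw2, mul_one]; exact k.2)

theorem ls_of_genFit [Finite G] (hz : orderOf z = 2)
    (hF : (generalizedFittingSubgroup (centralizer ({z} : Set G))).map
      (centralizer ({z} : Set G)).subtype = Q) (hQ : IsExtraspecial 2 Q) :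
    LS Q z ∧ Q = pCoreOf 2 (centralizer {z}) := by
  haveI : Fact (Nat.Prime 2) := ⟨Nat.prime_two⟩
  have h1 : generalizedFittingSubgroup (centralizer ({z} : Set G)) = pCore 2 _ :=
    (Comp2.genFitting_eq_pCore_iff_isPGroup 2).2 (isPGroup_of_subgroupOf (K := ⊤) (by
      have := isPGroup_subgroupOf (K := centralizer {z}) (hF ▸ hQ.1.1 : IsPGroup 2 (map _ _))
      rw [map_subtype_subgroupOf] at this
      exact isPGroup_subgroupOf this) le_top)
  have h2 : Q = pCoreOf 2 (centralizer {z}) := by rw [← hF, h1]; rfl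
  have h3 : CharP 2 (centralizer ({z} : Set G)) :=
    charP_iff.2 ((Comp2.genFitting_eq_pCore_iff 2).1 h1)
  have hzQ : z ∈ pCoreOf 2 (centralizer ({z} : Set G)) :=
    h3 ⟨Inv.mem_centralizer_single.2 rfl, fun x hx => Inv.mem_centralizer_single.1 (pCoreOf_le _ hx)⟩
  have := ls_of_core hz (h2 ▸ hQ) (fun c hc => h3 ⟨Inv.mem_centralizer_single.2 (hc z hzQ).symm, hc⟩) 1
  exact ⟨by simpa [← h2] using this, h2⟩

theorem ls_map (h : ES Q z) {P H : Subgroup G} (hP : P ≤ Q) (hz : z ∈ P) (hPH : P ≤ H)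
    {Y : Type*} [Group Y] (f : H →* Y) (hf : Function.Surjective f) (h1 : f ⟨z, hPH hz⟩ ≠ 1)
    (hcent : ∀ c : H, (∀ x : H, (x : G) ∈ P → Commute (f c) (f x)) → f c = 1 ∨ f c = f ⟨z, hPH hz⟩)
    (hnorm : ∀ c : H, Commute (f c) (f ⟨z, hPH hz⟩) →
      ∃ c' : H, f c' = f c ∧ (c' : G) ∈ normalizer (P : Set G))
    (hnc : ∃ x ∈ P, ∃ y ∈ P, ¬ Commute x y) :
    LS ((P.subgroupOf H).map f) (f ⟨z, hPH hz⟩) := by
  have hm : f ⟨z, hPH hz⟩ ∈ (P.subgroupOf H).map f := ⟨_, hz, rfl⟩
  refine ⟨⟨hm, h1, by rw [← map_mul, ← map_one f]; exact congrArg f (Subtype.ext h.zsq), ?_, ?_, ?_,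
    ?_, ?_⟩, fun g hg => ?_, fun g hg => ?_⟩
  · rintro _ ⟨x, hx, rfl⟩
    exact Commute.map (show Commute (⟨z, hPH hz⟩ : H) x from Subtype.ext (h.central x (hP hx)).eq) f
  · rintro _ ⟨x, hx, rfl⟩ _ ⟨y, hy, rfl⟩
    simp only [← map_mul, ← map_inv]
    exact (h.conj x (hP hx) y (hP hy)).imp (fun e => congrArg f (Subtype.ext e))
      fun e => congrArg f (Subtype.ext e)
  · rintro _ ⟨x, hx, rfl⟩
    rw [← map_mul, ← map_one f]
    exact (h.sq x (hP hx)).imp (fun e => congrArg f (Subtype.ext e))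
      fun e => congrArg f (Subtype.ext e)
  · rintro _ ⟨x, -, rfl⟩ hc
    exact hcent x fun y hy => hc _ ⟨y, hy, rfl⟩
  · obtain ⟨x, hx, y, hy, hxy⟩ := hnc
    refine ⟨_, ⟨⟨x, hPH hx⟩, hx, rfl⟩, _, ⟨⟨y, hPH hy⟩, hy, rfl⟩, fun e => h1 ?_⟩
    have e1 := Inv.commute_iff_conj.1 e
    rw [← map_inv, ← map_mul, ← map_mul, show (⟨x, hPH hx⟩ * ⟨y, hPH hy⟩ * ⟨x, hPH hx⟩⁻¹ : H) =
      ⟨y, hPH hy⟩ * ⟨z, hPH hz⟩ from Subtype.ext (h.conj_eq (hP hx) (hP hy) hxy), map_mul] at e1
    simpa using e1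
  · obtain ⟨c, rfl⟩ := hf g
    rcases hcent c fun x hx => hg _ ⟨x, hx, rfl⟩ with e | e <;> rw [e]
    exacts [one_mem _, hm]
  · obtain ⟨c, rfl⟩ := hf g
    obtain ⟨c', e, hc'⟩ := hnorm c hg
    rintro _ ⟨x, hx, rfl⟩
    rw [← e, ← map_inv, ← map_mul, ← map_mul]
    exact ⟨c' * x * c'⁻¹, (conj_mem_of_mem_normalizer hc' hx : _ ∈ P), rfl⟩

theorem es_fix [Finite G] (h : ES Q z) {A : Subgroup G} (hA : A ≤ normalizer (Q : Set G))
    (hodd : Odd (Nat.card A)) {x : G} (hx : x ∈ Q ⊓ centralizer (A : Set G)) (h1 : x ≠ 1)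
    (h2 : x ≠ z) : ∃ y ∈ Q ⊓ centralizer (A : Set G), y * x * y⁻¹ = x * z := by
  haveI : Fact (Nat.Prime 2) := ⟨Nat.prime_two⟩
  obtain ⟨k, hk, hkx⟩ := h.exists_not_commute hx.1 h1 h2
  haveI := h.isPGroup.isNilpotent
  obtain ⟨u, hu, c, hc, rfl⟩ := Core.exists_commutator_mul_centralizer A Q hA
    (Comp2.coprime_card_card_of_isPGroup h.isPGroup (Nat.coprime_two_right.2 hodd)).symm
    (Or.inr inferInstance) k hk
  have hu' : u ∈ centralizer {x} := (commutator_le.2 fun q hq a ha => by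
    have h3 := conj_mem_of_mem_normalizer (hA ha) (inv_mem hq)
    rw [Inv.mem_centralizer_single, commutatorElement_def, mul_assoc, mul_assoc, ← mul_assoc a,
      h.commute_mul_iff hq h3 hx.1, commute_cj_iff, mul_assoc, ← hx.2 a ha]
    simp) hu
  refine ⟨c, hc, h.conj_eq hc.1 hx.1 fun e => hkx ?_⟩
  exact ((Inv.mem_centralizer_single.1 hu').mul_left e).symm

theorem eq_one_of_odd_pow {A : Subgroup G} (hodd : Odd (Nat.card A)) {c x : G}
    (hx : x ∈ centralizer (A : Set G)) (h4 : x ^ 4 = 1) (hc : c * x * c⁻¹ * x⁻¹ ∈ A) :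
    Commute c x := by
  have h1 : (c * x * c⁻¹ * x⁻¹ * x) ^ 4 = 1 := by
    rw [inv_mul_cancel_right, conj_pow, h4]; simp
  rw [Commute.mul_pow (hx _ hc), h4, mul_one] at h1
  have h2 : orderOf (c * x * c⁻¹ * x⁻¹) = 1 := Nat.eq_one_of_dvd_coprimes
    (Nat.Coprime.pow_left 2 (Nat.coprime_two_left.2 hodd))
    (orderOf_dvd_of_pow_eq_one h1) (A.orderOf_dvd_natCard hc)
  exact Inv.commute_iff_conj.2 (mul_inv_eq_one.1 (orderOf_eq_one_iff.1 h2))

theorem es_pow_four (h : ES Q z) {x : G} (hx : x ∈ Q) : x ^ 4 = 1 := by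
  have : x ^ 4 = (x * x) * (x * x) := by simp [pow_succ, mul_assoc]
  rcases h.sq x hx with e | e <;> simp [this, e, h.zsq]

/-- every nontrivial `Q`-invariant subgroup contains `z` -/
theorem z_mem [Finite G] (h : LS Q z)
    (hL : ∀ K : Subgroup G, Odd (Nat.card K) → Q ≤ normalizer (K : Set G) → K = ⊥)
    {K : Subgroup G} (hK : Q ≤ normalizer (K : Set G)) (hne : K ≠ ⊥) : z ∈ K := by
  haveI : Fact (Nat.Prime 2) := ⟨Nat.prime_two⟩
  obtain ⟨T, hT, hQT⟩ := exists_isSylowIn_le h.isPGroup (le_sup_left : Q ≤ Q ⊔ K)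
  have hN : Q ⊔ K ≤ normalizer (K : Set G) := sup_le hK le_normalizer
  have h1 := hT.inf_of_le_normalizer le_sup_right hN
  obtain ⟨x, hx, hxc, hx2⟩ := exists_mem_inf_centralizer h.isPGroup h1.pgrp
    (le_normalizer_inf (hQT.trans le_normalizer) hK)
    (h1.ne_bot (even_iff_two_dvd.1 (Nat.not_odd_iff_even.1 fun ho => hne (hL K ho hK))))
  exact (h.cent' fun y hy => (hxc y hy).symm).resolve_left (Inv.ne_one_of_two hx2) ▸ hx.2

theorem large_structure [Finite G] (h : LS Q z)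
    (hL : ∀ K : Subgroup G, Odd (Nat.card K) → Q ≤ normalizer (K : Set G) → K = ⊥) {M : Subgroup G}
    (hM : M = normalClosure ({z} : Set G)) :
    (IsMulCommutative M ∧ generalizedFittingSubgroup G = pCore 2 G) ∨
    (M = generalizedFittingSubgroup G ∧ IsSimpleGroup M ∧ ¬ IsMulCommutative M) ∨
    (M = generalizedFittingSubgroup G ∧ ∃ (L : Subgroup G) (u : G), u ∈ Q ∧ IsSimpleGroup L ∧
      ¬ IsMulCommutative L ∧ L ⊓ cj u L = ⊥ ∧ (∀ x ∈ L, ∀ y ∈ cj u L, x * y = y * x) ∧
      L ⊔ cj u L = M ∧ ∃ z₁ ∈ L, z = z₁ * (u * z₁ * u⁻¹) ∧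
      (∃ R : Sylow 2 L, (R : Subgroup L) = (centralizer ({z₁} : Set G)).subgroupOf L ∧
        (frattini (R : Subgroup L)).map (L.subtype.comp (R : Subgroup L).subtype) ≤ zpowers z₁) ∧
      Q ≠ pCoreOf 2 (centralizer {z})) := by
  haveI : Fact (Nat.Prime 2) := ⟨Nat.prime_two⟩
  have hN : ∀ K : Subgroup G, K.Normal → Q ≤ normalizer (K : Set G) := fun K hK =>
    le_normalizer_of_normal
  have hO : pPrimeCore 2 G = ⊥ :=
    hL _ (Nat.coprime_two_right.1 (Comp2.pPrimeCore_coprime 2)) (hN _ inferInstance)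
  have hF := Comp2.fitting_eq_pCore_of_pPrimeCore_eq_bot 2 hO
  have hMle : ∀ K : Subgroup G, K.Normal → z ∈ K → M ≤ K := fun K hK hz =>
    hM ▸ normalClosure_le_normal (Set.singleton_subset_iff.2 hz)
  by_cases h2 : pCore 2 G ≠ ⊥
  · left
    have hn : (pCore 2 G ⊓ centralizer (pCore 2 G : Set G)).Normal := inferInstance
    have hz := z_mem h hL (hN _ hn)
      (inf_centralizer_ne_bot isPGroup_pCore isPGroup_pCore le_normalizer h2)
    refine ⟨isMulCommutative_of_le (isMulCommutative_center _) (hMle _ hn hz),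
      (Comp2.genFitting_eq_pCore_iff' 2).2 ⟨hO, ?_⟩⟩
    have h3 : layer G ≤ normalizer (Q : Set G) := fun e he => h.mem_normalizer
      (Comp2.layer_le_centralizer_fitting he z (hF ▸ hz.1)).symm
    haveI := h.isPGroup.isNilpotent
    have h4 := commutator_eq_bot_iff_le_centralizer.1
      (Comp2.layer_commutator_eq_bot_of_isSolvable inferInstance h3)
    rw [h.centralizer_eq] at h4
    rw [← Comp2.layer_commutator_self, commutator_eq_bot_iff_le_centralizer]
    exact fun a ha b hb => (Inv.commute_of_mem_zpowers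
      (Inv.commute_of_mem_zpowers rfl (h4 ha)).symm (h4 hb)).eq
  right
  rw [not_ne_iff] at h2
  rw [h2] at hF
  have hE : generalizedFittingSubgroup G = layer G := by
    rw [generalizedFittingSubgroup, hF, sup_bot_eq]
  haveI : Nontrivial G := ⟨z, 1, h.ne⟩
  obtain ⟨L, hLc⟩ : ∃ L : Subgroup G, IsComponent L := by
    by_contra hc
    exact Comp2.genFitting_ne_bot (hE.trans (Comp2.layer_eq_bot_iff.2 fun K hK => hc ⟨K, hK⟩))
  have hZ : ∀ K : Subgroup G, IsComponent K → ∀ x ∈ K, x ∈ centralizer (K : Set G) → x = 1 := by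
    intro K hK x hx hxc
    have := Comp2.le_fitting_of_subnormal (N := K ⊓ centralizer (K : Set G))
      (Comp2.isSubnormal_of_le_normalizer inf_le_left
        (le_normalizer_inf le_normalizer (le_normalizer_centralizer le_normalizer)) hK.1)
      (Comp2.isNilpotent_of_le_centralizer fun a ha b hb => ha.2 b hb.1) ⟨hx, hxc⟩
    rwa [hF, mem_bot] at this
  have hsimp : IsSimpleGroup L ∧ ¬ IsMulCommutative L := by
    have hc : center L = ⊥ := eq_bot_iff.2 fun x hx => mem_bot.2 (Subtype.ext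
      (hZ L hLc x x.2 fun y hy => congrArg Subtype.val (mem_center_iff.1 hx ⟨y, hy⟩)))
    haveI := hLc.2.2
    refine ⟨(QuotientGroup.quotientMulEquivOfEq hc).trans QuotientGroup.quotientBot |>.symm.isSimpleGroup,
      fun hc => Comp2.component_ne_bot hLc (eq_bot_iff.2 fun x hx => hZ L hLc x hx fun y hy =>
        congrArg Subtype.val (hc.is_comm.comm (⟨y, hy⟩ : L) ⟨x, hx⟩))⟩
  have hcomm : ∀ K K' : Subgroup G, IsComponent K → IsComponent K' → K ≠ K' →
      K ≤ centralizer (K' : Set G) := fun K K' h1 h2 hne =>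
    commutator_eq_bot_iff_le_centralizer.1 (Comp2.component_commutator_eq_bot_of_ne h1 h2 hne)
  have hCE : ∀ x, (∀ K : Subgroup G, IsComponent K → x ∈ centralizer (K : Set G)) → x = 1 := by
    intro x hx
    have : layer G ≤ centralizer {x} := Comp2.layer_le_iff.2 fun K hK k hk =>
      Inv.mem_centralizer_single.2 (hx K hK k hk)
    have h3 := Comp2.centralizer_genFitting_le_fitting (G := G) (x := x) fun e he =>
      Inv.mem_centralizer_single.1 (this (hE ▸ he))
    rwa [hF, mem_bot] at h3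
  have hnz : ∀ K : Subgroup G, IsComponent K → z ∉ centralizer (K : Set G) := fun K hK hz => by
    have h3 : K ≤ normalizer (Q : Set G) := fun k hk => h.mem_normalizer (hz k hk)
    haveI := h.isPGroup.isNilpotent
    have h4 := commutator_eq_bot_iff_le_centralizer.1
      (Comp2.component_commutator_eq_bot_of_isSolvable hK inferInstance h3)
    rw [h.centralizer_eq] at h4
    refine Comp2.component_ne_bot hK ?_
    rw [← Comp2.component_commutator_self hK, commutator_eq_bot_iff_le_centralizer]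
    exact fun a ha b hb => (Inv.commute_of_mem_zpowers
      (Inv.commute_of_mem_zpowers rfl (h4 ha)).symm (h4 hb)).eq
  have htr : ∀ K : Subgroup G, IsComponent K → ∃ q ∈ Q, cj q L = K := fun K hK => by
    by_contra hc
    push Not at hc
    have h3 : (⨆ q : Q, cj (q : G) L) ≤ centralizer (K : Set G) := iSup_le fun q =>
      hcomm _ _ (Comp2.component_conj hLc q) hK (hc q q.2)
    refine hnz K hK (h3 (z_mem h hL (le_normalizer_of_cj_le fun g hg => ?_) fun e => ?_))
    · rw [cj_iSup]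
      exact iSup_le fun q => le_iSup_of_le ⟨g * q, mul_mem hg q.2⟩ (cj_cj _ _ _).le
    · exact Comp2.component_ne_bot hLc (cj_eq_bot.1 (iSup_eq_bot.1 e 1))
  have hzE : z ∈ layer G := z_mem h hL (hN _ inferInstance) fun e =>
    Comp2.component_ne_bot hLc (eq_bot_iff.2 (e ▸ Comp2.component_le_layer hLc))
  have hME : M = layer G := by
    refine le_antisymm (hMle _ inferInstance hzE) (Comp2.layer_le_iff.2 fun K hK => ?_)
    haveI : M.Normal := hM ▸ inferInstance
    refine (Comp2.component_le_or_commutator_eq_bot_of_normal hK M).resolve_right fun e => ?_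
    rw [commutator_comm] at e
    exact hnz K hK (commutator_eq_bot_iff_le_centralizer.1 e (hM ▸ subset_normalClosure rfl))
  by_cases hQL : Q ≤ normalizer (L : Set G)
  · left
    have : M = L := hME.trans (le_antisymm (Comp2.layer_le_iff.2 fun K hK => by
      obtain ⟨q, hq, rfl⟩ := htr K hK
      exact (cj_eq_of_mem_normalizer (hQL hq)).le) (Comp2.component_le_layer hLc))
    exact ⟨hME.trans hE.symm, this ▸ hsimp⟩
  right
  obtain ⟨u, hu, huL⟩ := SetLike.not_le_iff_exists.1 hQL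
  have hne : L ≠ cj u L := fun e => huL (cj_eq_self_iff.1 e.symm)
  have hL' := Comp2.component_conj hLc u
  have hLL' := hcomm _ _ hLc hL' hne
  have hL'L := hcomm _ _ hL' hLc hne.symm
  have hzL := Comp2.layer_le_normalizer hLc hzE
  have huu : cj u (cj u L) = L := by
    rw [cj_cj]
    rcases h.sq u hu with e | e <;> rw [e]
    exacts [cj_one L, cj_eq_of_mem_normalizer hzL]
  obtain ⟨z₁, hz₁, c, hc, hzc⟩ := (mem_sup_iff_of_le_normalizer (le_normalizer_inf
    le_normalizer_of_normal (le_normalizer_centralizer le_normalizer))).1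
    (Comp2.layer_le_sup_centralizer hLc hzE)
  have huniq : ∀ a ∈ L, ∀ b ∈ L, ∀ a' ∈ centralizer (L : Set G), ∀ b' ∈ centralizer (L : Set G),
      a * a' = b * b' → a = b := fun a ha b hb a' ha' b' hb' e => by
    refine (inv_mul_eq_one.1 (hZ L hLc _ (mul_mem (inv_mem hb) ha) ?_)).symm
    rw [show b⁻¹ * a = b' * a'⁻¹ by rw [eq_mul_inv_iff_mul_eq, mul_assoc, e]; group]
    exact mul_mem hb' (inv_mem ha')
  have hCL : ∀ x ∈ L, Commute x z ↔ Commute x z₁ := fun x hx => by
    rw [← hzc]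
    exact ⟨fun e => by simpa using e.mul_right (Commute.inv_right (hc.2 x hx)),
      fun e => e.mul_right (hc.2 x hx)⟩
  have hz₁1 : z₁ ≠ 1 := fun e => hnz L hLc (by rw [← hzc, e, one_mul]; exact hc.2)
  have hz₁2 : z₁ * z₁ = 1 := huniq _ (mul_mem hz₁ hz₁) 1 (one_mem _) _ (mul_mem hc.2 hc.2) 1
    (one_mem _) (by rw [mul_assoc, ← mul_assoc z₁ c, hc.2 z₁ hz₁, mul_assoc c, ← mul_assoc, hzc,
      h.zsq, one_mul])
  have hw : ∀ x ∈ L, Commute x z₁ → x * (u * x⁻¹ * u⁻¹) ∈ Q := fun x hx e => by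
    simpa [mul_assoc] using mul_mem (h.norm x ((hCL x hx).2 e) u hu) (inv_mem hu)
  have hsq : ∀ x ∈ L, Commute x z₁ → x * x = 1 ∨ x * x = z₁ := fun x hx e => by
    have h3 : u * x⁻¹ * u⁻¹ ∈ centralizer (L : Set G) := hL'L (conj_mem_cj (inv_mem hx))
    have h4 : x * (u * x⁻¹ * u⁻¹) * (x * (u * x⁻¹ * u⁻¹)) =
        x * x * ((u * x⁻¹ * u⁻¹) * (u * x⁻¹ * u⁻¹)) := by
      rw [mul_assoc x, ← mul_assoc _ x, ← h3 x hx]; group
    refine (h.sq _ (hw x hx e)).imp (fun e => ?_) fun e => ?_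
    · exact huniq _ (mul_mem hx hx) 1 (one_mem _) _ (mul_mem h3 h3) 1 (one_mem _)
        (by rw [← h4, e, one_mul])
    · exact huniq _ (mul_mem hx hx) _ hz₁ _ (mul_mem h3 h3) _ hc.2 (by rw [← h4, e, hzc])
  have hR2 : IsPGroup 2 (centralizer {z₁} ⊓ L : Subgroup G) := isPGroup_iff_mem.2 fun x hx => ⟨2, by
    have : x ^ 2 ^ 2 = (x * x) * (x * x) := by simp [pow_succ, mul_assoc]
    rcases hsq x hx.2 (Inv.mem_centralizer_single.1 hx.1) with e | e <;> rw [this, e] <;> simp [hz₁2]⟩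
  have hSyl : IsSylowIn 2 (centralizer {z₁} ⊓ L) L := by
    obtain ⟨S, hS⟩ := h.isPGroup.exists_le_sylow
    obtain ⟨w, -, hwc, hw2⟩ := exists_mem_inf_centralizer S.isPGroup' S.isPGroup' le_normalizer
      (fun e => h.ne (by have := hS h.mem; rwa [e, mem_bot] at this))
    obtain rfl : w = z := (h.cent' fun x hx => (hwc x (hS hx)).symm).resolve_left
      (Inv.ne_one_of_two hw2)
    have h3 := sylow_inf_subnormal S hLc.1
    refine h3.of_card_le inf_le_right hR2 (card_le_of_le fun x hx => ⟨?_, hx.2⟩)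
    exact Inv.mem_centralizer_single.2 ((hCL x hx.2).1 (hwc x hx.1))
  obtain ⟨x, hx, hxc, hx1, hx2⟩ : ∃ x ∈ L, Commute x z₁ ∧ x ≠ 1 ∧ x ≠ z₁ := by
    by_contra hcon
    push Not at hcon
    have h3 : centralizer {z₁} ⊓ L = zpowers z₁ := le_antisymm (fun x hx => by
      rw [mem_zpowers_two hz₁2]
      exact (eq_or_ne x 1).imp_right (hcon x hx.2 (Inv.mem_centralizer_single.1 hx.1)))
      (zpowers_le.2 ⟨Inv.mem_centralizer_single.2 rfl, hz₁⟩)
    have h4 : ¬ 4 ∣ Nat.card L := fun h4 => by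
      have := hSyl.card_eq
      rw [h3, Nat.card_zpowers, Inv.two_of_mul_self hz₁1 hz₁2] at this
      have h5 := (Nat.prime_two.pow_dvd_iff_le_factorization Nat.card_pos.ne').1
        (show 2 ^ 2 ∣ Nat.card L from h4)
      have h6 := Nat.pow_le_pow_right (n := 2) (by norm_num) h5
      omega
    obtain ⟨N, hN, hNo, hNd⟩ := odd_compl (w := (⟨z₁, hz₁⟩ : L))
      (by rw [orderOf_mk, Inv.two_of_mul_self hz₁1 hz₁2]) h4
    haveI := hsimp.1
    rcases hN.eq_bot_or_eq_top with rfl | rfl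
    · have h5 : ∀ d : L, d = 1 ∨ d = (⟨z₁, hz₁⟩ : L)⁻¹ := fun d =>
        (hNd d).imp mem_bot.1 fun e => eq_inv_of_mul_eq_one_left (mem_bot.1 e)
      exact hsimp.2 ⟨⟨fun a b => by
        rcases h5 a with rfl | rfl <;> rcases h5 b with rfl | rfl <;> simp⟩⟩
    · rw [card_top] at hNo
      have := hNo.of_dvd_nat (L.orderOf_dvd_natCard hz₁)
      rw [Inv.two_of_mul_self hz₁1 hz₁2] at this
      exact absurd this (by decide)
  have hkey : ∀ y ∈ L, ∀ a ∈ centralizer (L : Set G), ∀ b ∈ centralizer (L : Set G),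
      (b = y * a ∨ b = y * a * z) → y = 1 ∨ y = z₁ := fun y hy a ha b hb e => by
    refine e.imp (fun e => huniq _ hy 1 (one_mem _) _ ha _ hb (by rw [e, one_mul])) fun e => ?_
    have := huniq _ (mul_mem hy hz₁) 1 (one_mem _) _ (mul_mem ha hc.2) _ hb (by
      rw [e, ← hzc, one_mul, mul_assoc, mul_assoc, ← mul_assoc z₁, ha z₁ hz₁]; group)
    rw [eq_inv_of_mul_eq_one_left this, inv_eq_of_mul_eq_one_right hz₁2]
  have htwo : ∀ K : Subgroup G, IsComponent K → K = L ∨ K = cj u L := fun K hK => by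
    obtain ⟨v, hv, rfl⟩ := htr K hK
    by_contra hcon
    push Not at hcon
    have h3 : cj v (cj u L) ≠ L := fun e => hcon.2 (by
      have h4 : cj v (cj v L) = L := by
        rw [cj_cj]
        rcases h.sq v hv with e | e <;> rw [e]
        exacts [cj_one L, cj_eq_of_mem_normalizer hzL]
      exact cj_inj.1 (h4.trans e.symm))
    have h4 : v * (x * (u * x⁻¹ * u⁻¹)) * v⁻¹ ∈ centralizer (L : Set G) := by
      rw [← conj_mul]
      exact mul_mem (hcomm _ _ hK hLc hcon.1 (conj_mem_cj hx))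
        (hcomm _ _ (Comp2.component_conj hL' v) hLc h3 (conj_mem_cj (conj_mem_cj (inv_mem hx))))
    rcases hkey x hx _ (hL'L (conj_mem_cj (inv_mem hx))) _ h4 (h.conj v hv _ (hw x hx hxc))
      with e | e
    exacts [hx1 e, hx2 e]
  have hsup : L ⊔ cj u L = layer G := le_antisymm
    (sup_le (Comp2.component_le_layer hLc) (Comp2.component_le_layer hL'))
    (Comp2.layer_le_iff.2 fun K hK => by
      rcases htwo K hK with rfl | rfl
      exacts [le_sup_left, le_sup_right])
  have hdec : ∀ e ∈ layer G, ∃ a ∈ L, ∃ b ∈ cj u L, a * b = e := fun e he =>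
    (mem_sup_iff_of_le_normalizer (hLL'.trans (centralizer_le_normalizer _))).1 (hsup.ge he)
  have hcu : c = u * z₁ * u⁻¹ := by
    obtain ⟨a, ha, b, hb, e⟩ := hdec z hzE
    obtain rfl : a = z₁ := huniq _ ha _ hz₁ _ (hL'L hb) _ hc.2 (e.trans hzc.symm)
    obtain rfl : b = c := mul_left_cancel (e.trans hzc.symm)
    have h3 : u * b * u⁻¹ ∈ L := huu ▸ conj_mem_cj hb
    have h4 : u * a * u⁻¹ ∈ centralizer (L : Set G) := hL'L (conj_mem_cj ha)
    have h5 : u * b * u⁻¹ * (u * a * u⁻¹) = a * b := by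
      rw [h4 _ h3, conj_mul, e, Inv.commute_iff_conj.1 (h.central u hu).symm]
    have h6 := huniq _ h3 _ ha _ h4 _ hc.2 h5
    rw [h6] at h5
    exact (mul_left_cancel h5).symm
  refine ⟨hME.trans hE.symm, L, u, hu, hsimp.1, hsimp.2,
    eq_bot_iff.2 fun y hy => hZ L hLc y hy.1 (hL'L hy.2), fun a ha b hb => hL'L hb a ha,
    hsup.trans hME.symm, z₁, hz₁, by rw [← hcu, hzc], ⟨hSyl.toSylow, ?_, ?_⟩, fun e => ?_⟩
  · rw [hSyl.coe_toSylow, inf_subgroupOf_right]
  · rw [map_le_iff_le_comap]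
    have h3 : ∀ y : hSyl.toSylow, Commute ((y : L) : G) z₁ := fun y =>
      Inv.mem_centralizer_single.1 (y.2 : ((y : L) : G) ∈ centralizer {z₁} ⊓ L).1
    have h4 : ∀ y : hSyl.toSylow, ((y : L) : G) * (y : L) ∈ zpowers z₁ := fun y =>
      (mem_zpowers_two hz₁2).2 (hsq _ (y : L).2 (h3 y))
    refine PGrp.frattini_le_of_commutator_le_of_pow_mem Nat.prime_two ?_ fun y => by
      simpa [mem_comap, sq] using h4 y
    rw [_root_.commutator_def, commutator_le]
    intro a _ b _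
    have h5 := inv_conj_mem_of_mem_normalizer (centralizer_le_normalizer _
      (show ((b : L) : G) ∈ centralizer (zpowers z₁ : Set G) from fun t ht =>
        (Inv.commute_of_mem_zpowers (h3 b).symm ht).eq)) (inv_mem (h4 a))
    have := mul_mem (mul_mem (h4 (a * b)) h5) (inv_mem (h4 b))
    simp only [mem_comap, commutatorElement_def, map_mul, map_inv, MonoidHom.comp_apply,
      coe_subtype]
    convert this using 1
    simp only [coe_mul]; group
  · have h3 : layer G ⊓ centralizer {z} ≤ pCoreOf 2 (centralizer {z}) := by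
      refine le_pCoreOf inf_le_right (le_normalizer_inf le_normalizer_of_normal le_normalizer)
        (isPGroup_iff_mem.2 fun y hy => ⟨2, ?_⟩)
      obtain ⟨a, ha, b, hb, rfl⟩ := hdec y hy.1
      have hab : Commute a b := hL'L hb a ha
      have h4 : Commute (a * b) z := Inv.mem_centralizer_single.1 hy.2
      have h5 : Commute a z := by
        rw [hCL a ha, Inv.commute_iff_conj]
        have h6 := Inv.commute_iff_conj.1 h4
        have h7 : b * c * b⁻¹ ∈ centralizer (L : Set G) :=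
          mul_mem (mul_mem (hL'L hb) hc.2) (inv_mem (hL'L hb))
        refine huniq _ (mul_mem (mul_mem ha hz₁) (inv_mem ha)) _ hz₁ _ h7 _ hc.2 ?_
        rw [hzc, ← h6, ← hzc]
        calc a * z₁ * a⁻¹ * (b * c * b⁻¹) = a * z₁ * (b * c * b⁻¹) * a⁻¹ := by
              rw [mul_assoc (a * z₁), h7 _ (inv_mem ha), ← mul_assoc]
          _ = a * (z₁ * b) * c * b⁻¹ * a⁻¹ := by group
          _ = _ := by rw [hL'L hb z₁ hz₁]; group
      have h6 : Commute (u⁻¹ * b * u) z := by
        have := (commute_cj_iff u⁻¹ b z).2 (by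
          rw [inv_inv, Inv.commute_iff_conj.1 (h.central u hu).symm]
          simpa using h5.inv_left.mul_left h4)
        rwa [inv_inv] at this
      have h7 : ∀ t ∈ L, Commute t z → t ^ 2 ^ 2 = 1 := fun t ht e => by
        have : t ^ 2 ^ 2 = (t * t) * (t * t) := by simp [pow_succ, mul_assoc]
        rcases hsq t ht ((hCL t ht).1 e) with e | e <;> rw [this, e] <;> simp [hz₁2]
      have h8 := h7 _ (mem_cj.1 hb) h6
      rw [show u⁻¹ * b * u = u⁻¹ * b * u⁻¹⁻¹ by rw [inv_inv], conj_pow, conj_eq_one_iff] at h8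
      rw [hab.mul_pow, h7 a ha h5, h8, one_mul]
    have hxQ : x ∈ Q := e ▸ h3 ⟨Comp2.component_le_layer hLc hx,
      Inv.mem_centralizer_single.2 ((hCL x hx).2 hxc)⟩
    rcases hkey x hx 1 (one_mem _) _ (hL'L (conj_mem_cj hx))
      (by simpa using h.conj u hu x hxQ) with e | e
    exacts [hx1 e, hx2 e]

theorem simple_of_large [Finite G] (h : LS Q z) (hL : IsLargeExtraspecial Q)
    (hQ : Q = pCoreOf 2 (centralizer {z}))
    (hC : centralizer {z} ≤ normalClosure ({z} : Set G)) : IsSimpleGroup G := by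
  haveI : Fact (Nat.Prime 2) := ⟨Nat.prime_two⟩
  have hQM : Q ≤ normalClosure ({z} : Set G) := hQ.le.trans ((pCoreOf_le _).trans hC)
  rcases large_structure h hL.2.2.2 rfl with h1 | h1 | ⟨-, L, u, -, -, -, -, -, -, -, -, -, -, h1⟩
  · obtain ⟨x, hx, y, hy, hxy⟩ := h.noncomm
    exact (hxy (congrArg Subtype.val (h1.1.is_comm.comm ⟨x, hQM hx⟩ ⟨y, hQM hy⟩))).elim
  · obtain ⟨T, hT, hQT⟩ := exists_isSylowIn_le h.isPGroup hQM
    have htop : normalClosure ({z} : Set G) = ⊤ := eq_top_iff.2 fun g _ => by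
      obtain ⟨n, hn, x, hx, rfl⟩ := hT.frattini (g := g) (le_normalizer_of_normal (mem_top g))
      refine mul_mem hn (hC (Inv.mem_centralizer_single.2 ?_))
      obtain ⟨w, -, hwc, hw⟩ := exists_mem_inf_centralizer hT.pgrp hT.pgrp le_normalizer
        (fun e => h.ne (by have := hQT h.mem; rwa [e, mem_bot] at this))
      have key : ∀ u : G, u ≠ 1 → u ∈ centralizer (T : Set G) → u = z := fun u hu hc =>
        (h.cent' fun x hx => (hc x (hQT hx)).symm).resolve_left hu
      obtain rfl := key w (Inv.ne_one_of_two hw) hwc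
      exact Inv.commute_iff_conj.2 (key _ (by simpa using h.ne)
        (conj_mem_of_mem_normalizer (normalizer_le_normalizer_centralizer _ hx) hwc))
    haveI := h1.2.1
    exact ((MulEquiv.subgroupCongr htop).trans topEquiv).symm.isSimpleGroup
  · exact (h1 hQ).elim

end Cfsg.Agent.PLocal
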