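import Mathlib
import Cfsg.Agent.PGrp.PStruct
import Cfsg.Agent.PGrp.Narrow
import Cfsg.Agent.Core.PConstrained
import Cfsg.Agent.LocalEven.Resid

/-!
# `p`-central `p`-groups and chief factors of `p`-solvable groups of `p`-rank at most two
-/

set_option autoImplicit false

namespace Cfsg.Agent.PLocal

open Subgroup
open scoped commutatorElement

universe u

variable {G : Type*} [Group G] {p : ℕ}

/-- In a `p`-central `p`-group (`p` odd), elements of order dividing `p ^ 2` are central modulo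
`Ω₁`. -/
theorem commutator_pow_eq_one_of_pcentral [Finite G] [Fact p.Prime] (hp : p ≠ 2) :
    ∀ (n : ℕ) (P : Subgroup G), Nat.card P = n → IsPGroup p P →
      (∀ x ∈ P, x ^ p = 1 → x ∈ centralizer (P : Set G)) →
      ∀ x ∈ P, (x ^ p) ^ p = 1 → ∀ g ∈ P, ⁅x, g⁆ ^ p = 1 := by
  intro n
  induction n using Nat.strong_induction_on with
  | _ n ih =>
  intro P hn hP hc x hx hxp g hg
  rcases (zpowers_le.2 hx).eq_or_lt with h | h
  · obtain ⟨k, rfl⟩ : g ∈ zpowers x := h ▸ hg
    rw [commutatorElement_eq_one_iff_commute.2 (Commute.zpow_right (Commute.refl x) k), one_pow]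
  obtain ⟨M, h1, h2, h3, h4⟩ := PGrp.exists_relIndex_prime_ge hP h
  have hlt : M < P := lt_of_le_of_ne h2 fun e => by
    rw [e, relIndex_self] at h3
    exact (Fact.out : p.Prime).one_lt.ne h3
  have hxM : x ∈ M := h1 (mem_zpowers x)
  have hy : g * x⁻¹ * g⁻¹ ∈ M := PGrp.conj_mem_of_mem_normalizer (h4 hg) (M.inv_mem hxM)
  have h5 := ih _ (hn ▸ PGrp.card_lt_of_lt hlt) M rfl (hP.to_le h2)
    (fun y hy h => centralizer_le (SetLike.coe_subset_coe.2 h2) (hc y (h2 hy) h)) _ hy
    (by rw [conj_pow, conj_pow, inv_pow, inv_pow, hxp]; simp) x hxM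
  have h6 := hc _ (h2 (commutator_mem_commutator hy hxM |> LocalEven.commutator_le_of_le le_rfl
    le_rfl)) h5
  have e : ⁅x, g⁆ = x * (g * x⁻¹ * g⁻¹) := by rw [commutatorElement_def]; group
  rw [e, PGrp.mul_pow_of_commute_of_odd ((Fact.out : p.Prime).odd_of_ne_two hp) (h6 x hx)
    (h6 _ (h2 hy)) h5, conj_pow, inv_pow]
  have := hc _ (P.pow_mem hx p) hxp g hg
  calc x ^ p * (g * (x ^ p)⁻¹ * g⁻¹) = (x ^ p * g) * (x ^ p)⁻¹ * g⁻¹ := by group
    _ = 1 := by rw [← this]; group

theorem mem_omegaOne_iff_of_pcentral {P : Subgroup G}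
    (hc : ∀ x ∈ P, x ^ p = 1 → x ∈ centralizer (P : Set G)) {x : G} :
    x ∈ omegaOne p P ↔ x ∈ P ∧ x ^ p = 1 :=
  ⟨fun h => ⟨PGrp.omegaOne_le h, PGrp.pow_eq_one_of_mem_omegaOne (fun a ha b hb h1 h2 => by
    rw [Commute.mul_pow (hc b hb h2 a ha), h1, h2, one_mul]) h⟩, fun h => PGrp.mem_omegaOne h.1 h.2⟩

theorem pcentral_map [Finite G] [Fact p.Prime] (hp : p ≠ 2) {P : Subgroup G} (hP : IsPGroup p P)
    (hc : ∀ x ∈ P, x ^ p = 1 → x ∈ centralizer (P : Set G)) {G' : Type*} [Group G']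
    (f : G →* G') (hf : f.ker = omegaOne p P) :
    (∀ x ∈ P.map f, x ^ p = 1 → x ∈ centralizer ((P.map f : Subgroup G') : Set G')) ∧
      Nat.card (omegaOne p (P.map f)) ≤ Nat.card (omegaOne p P) := by
  have h0 : ∀ x : G, f x ^ p = 1 → (x ^ p) ^ p = 1 := fun x hx => by
    rw [← map_pow, ← MonoidHom.mem_ker, hf, mem_omegaOne_iff_of_pcentral hc] at hx
    exact hx.2
  have h1 : ∀ x ∈ P.map f, x ^ p = 1 → x ∈ centralizer ((P.map f : Subgroup G') : Set G') := by
    rintro _ ⟨x, hx, rfl⟩ hxp _ ⟨g, hg, rfl⟩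
    have h2 : ⁅x, g⁆ ∈ f.ker := by
      rw [hf]
      exact PGrp.mem_omegaOne (LocalEven.commutator_le_of_le le_rfl le_rfl
        (commutator_mem_commutator hx hg))
        (commutator_pow_eq_one_of_pcentral hp _ P rfl hP hc x hx (h0 x hxp) g hg)
    rw [MonoidHom.mem_ker, map_commutatorElement, commutatorElement_eq_one_iff_mul_comm] at h2
    exact h2.symm
  refine ⟨h1, ?_⟩
  have h2 : ∀ y : omegaOne p (P.map f), ∃ x ∈ P, f x = y ∧ (x ^ p) ^ p = 1 := fun y => by
    obtain ⟨⟨x, hx, e⟩, h⟩ := (mem_omegaOne_iff_of_pcentral h1).1 y.2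
    exact ⟨x, hx, e, h0 x (e ▸ h)⟩
  choose s hs1 hs2 hs3 using h2
  refine Nat.card_le_card_of_injective (fun y => (⟨s y ^ p, PGrp.mem_omegaOne
    (P.pow_mem (hs1 y) p) (hs3 y)⟩ : omegaOne p P)) fun y z h => ?_
  have h' : s y ^ p = s z ^ p := congrArg Subtype.val h
  have h3 := commutator_pow_eq_one_of_pcentral hp _ P rfl hP hc _ (P.inv_mem (hs1 z))
    (by rw [inv_pow, inv_pow, hs3, inv_one]) _ (hs1 y)
  have h4 := hc _ (LocalEven.commutator_le_of_le le_rfl le_rfl
    (commutator_mem_commutator (P.inv_mem (hs1 z)) (hs1 y))) h3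
  have h5 : s y * (s z)⁻¹ ∈ f.ker := by
    rw [hf]
    refine PGrp.mem_omegaOne (P.mul_mem (hs1 y) (P.inv_mem (hs1 z))) ?_
    rw [PGrp.mul_pow_of_commute_of_odd ((Fact.out : p.Prime).odd_of_ne_two hp) (h4 _ (hs1 y))
      (h4 _ (P.inv_mem (hs1 z))) h3, inv_pow, h', mul_inv_cancel]
  rw [MonoidHom.mem_ker, map_mul, map_inv, mul_inv_eq_one, hs2, hs2] at h5
  exact Subtype.ext h5

/-- `N` is the top of a normal series of `G` none of whose steps has order divisible by `m`. -/
inductive Ser (m : ℕ) : Subgroup G → Prop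
  | bot : Ser m ⊥
  | step {N M : Subgroup G} : Ser m N → M.Normal → N ≤ M → ¬ m ∣ N.relIndex M → Ser m M

theorem Ser.normal {m : ℕ} {N : Subgroup G} (h : Ser m N) : N.Normal := by
  cases h with
  | bot => infer_instance
  | step _ h _ _ => exact h

theorem Ser.comap {m : ℕ} {G' : Type*} [Group G'] {N : Subgroup G'} (h : Ser m N) (f : G →* G')
    (hf : Ser m f.ker) : Ser m (N.comap f) := by
  induction h with
  | bot => exact hf
  | @step N M hN hM hle hd ih =>
    have := hN.normal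
    exact ih.step (hM.comap f) (comap_mono hle) fun h => hd (h.trans (Core.relIndex_comap_dvd f N M))

theorem Ser.inf_le [Finite G] {m : ℕ} {H K : Subgroup G} [H.Normal] [K.Normal] (hKH : K ≤ H)
    (hm : m ∣ K.relIndex H)
    (hchief : ∀ L : Subgroup G, L.Normal → K ≤ L → L ≤ H → L = K ∨ L = H) {N : Subgroup G}
    (h : Ser m N) : H ⊓ N ≤ K := by
  induction h with
  | bot => simp
  | @step N M hN hM hle hd ih =>
    have := hN.normal
    rcases hchief (K ⊔ H ⊓ M) inferInstance le_sup_left (sup_le hKH inf_le_left) with h | h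
    · exact le_sup_right.trans h.le
    · refine absurd (hm.trans ?_) hd
      rw [← h, relIndex_sup_left]
      calc K.relIndex (H ⊓ M) ∣ (H ⊓ N).relIndex (H ⊓ M) := relIndex_dvd_of_le_left _ ih
        _ = N.relIndex (H ⊓ M) := by
          rw [← inf_relIndex_right N, ← inf_relIndex_right (H ⊓ N)]
          congr 1
          rw [inf_comm H N, inf_assoc, ← inf_assoc H, inf_idem]
        _ ∣ N.relIndex M := Core.relIndex_dvd_of_le_right_normal N inf_le_right

theorem ser_of_pcentral [Fact p.Prime] (hp : p ≠ 2) {m : ℕ} (G : Type u) [Group G] [Finite G] :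
    ∀ P : Subgroup G, P.Normal → IsPGroup p P →
      (∀ x ∈ P, x ^ p = 1 → x ∈ centralizer (P : Set G)) → Nat.card (omegaOne p P) < m →
      Ser m P := by
  refine Core.induction_on_card (P := fun G _ _ => ∀ P : Subgroup G, P.Normal → IsPGroup p P →
      (∀ x ∈ P, x ^ p = 1 → x ∈ centralizer (P : Set G)) → Nat.card (omegaOne p P) < m →
      Ser m P) (fun G _ _ ih P hn hP hc hm => ?_) G
  by_cases h0 : P = ⊥
  · exact h0 ▸ Ser.bot
  have := PGrp.omegaOne_normal (p := p) P
  obtain ⟨h1, h2⟩ := pcentral_map hp hP hc (QuotientGroup.mk' (omegaOne p P))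
    (QuotientGroup.ker_mk' _)
  have h3 := (ih (G ⧸ omegaOne p P) (Core.card_quotient_lt _ (LocalEven.omegaOne_ne_bot hP h0)) _
    (hn.map _ (QuotientGroup.mk'_surjective _)) (hP.map _) h1 (h2.trans_lt hm)).comap
    (QuotientGroup.mk' (omegaOne p P)) (by
      rw [QuotientGroup.ker_mk']
      refine Ser.bot.step this bot_le fun h => ?_
      rw [relIndex_bot_left] at h
      exact (Nat.le_of_dvd Nat.card_pos h).not_gt hm)
  rwa [comap_map_eq, QuotientGroup.ker_mk', sup_eq_left.2 PGrp.omegaOne_le] at h3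

theorem pcentral_or_exists_char [Finite G] [Fact p.Prime] (hp2 : p ≠ 2) (hG : IsPGroup p G)
    (hr : PRankLE p 2 G) : (∀ x : G, x ^ p = 1 → x ∈ center G) ∨
      ∃ N : Subgroup G, N.Characteristic ∧ N ≠ ⊤ ∧ N.index ≤ p ^ 2 := by
  have hp : p.Prime := Fact.out
  have hodd := hp.odd_of_ne_two hp2
  have key : ∀ V : Subgroup G, V ≤ center G → IsElementaryAbelian p V → p ^ 2 ≤ Nat.card V →
      ∀ x : G, x ^ p = 1 → x ∈ center G := fun V h1 h2 h3 x hx => by
    have h4 := BG.Rank.pRankLE_iff'.1 hr _ (BG.Rank.elem_sup h2 (BG.Rank.elem_zpowers hx)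
      (h1.trans (center_le_centralizer _)))
    refine h1 ?_
    rw [PGrp.eq_of_le_of_card_le le_sup_left (h4.trans h3)]
    exact mem_sup_right (mem_zpowers x)
  by_contra hcon
  rw [not_or] at hcon
  obtain ⟨h1, h2⟩ := hcon
  have hnc : ¬ IsCyclic (⊤ : Subgroup G) := fun h => h1 fun x _ => by
    have := PGrp.isMulCommutative_of_isCyclic (PGrp.isCyclic_top_iff.1 h)
    exact mem_center_iff.2 fun g => this.1.1 g x
  obtain ⟨V, -, hVn, hV, hV2⟩ := PGrp.exists_normal_elementary_sq hp2 hG ⊤ hnc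
  have hWc : (omegaOne p (Subgroup.upperCentralSeries G 2)).Characteristic :=
    PGrp.omegaOne_characteristic _
  have hVW : V ≤ omegaOne p (Subgroup.upperCentralSeries G 2) := fun x hx =>
    PGrp.mem_omegaOne (PGrp.le_upperCentralSeries_two_of_card_eq_sq hG V hV2 hx) (hV.2 x hx)
  have hZe : IsElementaryAbelian p (omegaOne p (center G)) :=
    PGrp.isElementaryAbelian_omegaOne inferInstance
  obtain ⟨k, hk⟩ := PGrp.exists_card_eq_pow hG (omegaOne p (center G))
  have hk2 : k < 2 := by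
    by_contra h
    exact h1 (key _ PGrp.omegaOne_le hZe (hk ▸ Nat.pow_le_pow_right hp.pos (not_lt.1 h)))
  have hk0 : k ≠ 0 := by
    rintro rfl
    obtain ⟨z, -, hz, ho⟩ := PGrp.exists_mem_center_orderOf_eq hG ⊤
      (fun h => BG.Rank.ne_bot_of_card_pow hV2 (eq_bot_iff.mpr (h ▸ le_top)))
    have h3 : z ∈ omegaOne p (center G) := PGrp.mem_omegaOne hz (ho ▸ pow_orderOf_eq_one z)
    rw [card_eq_one.1 hk, mem_bot] at h3
    rw [h3, orderOf_one] at ho
    exact hp.one_lt.ne ho
  obtain rfl : k = 1 := by omega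
  rw [pow_one] at hk
  have hZW : omegaOne p (center G) ≤ omegaOne p (Subgroup.upperCentralSeries G 2) :=
    PGrp.omegaOne_mono fun x hx => Subgroup.upperCentralSeries_mono G one_le_two
      (by rwa [Subgroup.upperCentralSeries_one])
  refine h2 ⟨centralizer (omegaOne p (Subgroup.upperCentralSeries G 2) : Set G), inferInstance,
    fun h => h1 (key V (hVW.trans (centralizer_eq_top_iff_subset.1 h)) hV hV2.ge), ?_⟩
  have h3 := PGrp.relIndex_centralizer_le_relIndex (H := ⊤) hk.le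
    (le_centralizer_iff.1 (PGrp.omegaOne_le.trans (center_le_centralizer _))) _ _
    (hG.to_subgroup _) hZW (by
      rw [Subgroup.commutator_comm]
      exact commutator_le.2 fun x hx g _ => PGrp.commutator_mem_omegaOne_center hodd hx g) rfl
  rw [relIndex_top_right] at h3
  refine h3.trans (Nat.le_of_mul_le_mul_left ?_ hp.pos)
  have h4 := Core.card_mul_relIndex hZW
  rw [hk] at h4
  rw [h4, ← pow_succ']
  exact PGrp.card_le_cube_of_pRankLE_two (BG.Rank.pRankLE_subgroup hr _) fun w hw =>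
    PGrp.pow_eq_one_of_mem_omegaOne_of_class_two hodd PGrp.class_two_upperCentralSeries_two hw

theorem ser_of_pRankLE_two [Finite G] [Fact p.Prime] (hp2 : p ≠ 2) :
    ∀ (n : ℕ) (P : Subgroup G), Nat.card P = n → P.Normal → IsPGroup p P → PRankLE p 2 P →
      Ser (p ^ 3) P := by
  have hp : p.Prime := Fact.out
  intro n
  induction n using Nat.strong_induction_on with
  | _ n ih =>
  intro P hn hPn hP hr
  rcases pcentral_or_exists_char hp2 hP hr with h | ⟨N, hN, h1, h2⟩
  · have hc : ∀ x ∈ P, x ^ p = 1 → x ∈ centralizer (P : Set G) := fun x hx hxp g hg =>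
      congrArg Subtype.val (mem_center_iff.1 (h ⟨x, hx⟩ (Subtype.ext hxp)) ⟨g, hg⟩)
    refine ser_of_pcentral hp2 G P hPn hP hc (lt_of_le_of_lt (BG.Rank.card_le_of_pRankLE hr
      PGrp.omegaOne_le (BG.Rank.elem_of (fun x hx => ?_) fun x hx => ?_))
      (Nat.pow_lt_pow_right hp.one_lt (by norm_num)))
    · rw [mem_omegaOne_iff_of_pcentral hc] at hx
      exact centralizer_le (SetLike.coe_subset_coe.2 PGrp.omegaOne_le) (hc x hx.1 hx.2)
    · exact ((mem_omegaOne_iff_of_pcentral hc).1 hx).2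
  · have hle : N.map P.subtype ≤ P := map_subtype_le _
    refine (ih _ (by rw [LocalEven.card_map_subtype, ← hn]; exact Core.card_lt_of_ne_top N h1)
      (N.map P.subtype) rfl inferInstance (hP.to_le hle) (BG.Rank.pRankLE_mono hr hle)).step hPn
      hle fun h => ?_
    rw [relIndex, LocalEven.map_subtype_subgroupOf] at h
    have := (Nat.le_of_dvd (Nat.pos_of_ne_zero N.index_ne_zero_of_finite) h).trans h2
    exact absurd ((Nat.pow_le_pow_iff_right hp.one_lt).1 this) (by norm_num)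

theorem not_sq_dvd_index_pCore [Finite G] [Fact p.Prime] (hp2 : p ≠ 2)
    (hc : centralizer (pCore p G : Set G) ≤ pCore p G) (hr : PRankLE p 2 (pCore p G)) :
    ¬ p ^ 2 ∣ (pCore p G).index := by
  have hp : p.Prime := Fact.out
  obtain ⟨φ, hφ⟩ := PGrp.exists_matrix_two_of_pRankLE_two hp2 (Core.pCore_isPGroup (G := G) p) hr
  let ψ := (φ.comp (MulAut.conjNormal (H := pCore p G))).toHomUnits
  have h1 : ψ.ker ≤ pCore p G := by
    refine Core.le_pCore inferInstance (LocalEven.isPGroup_iff_mem.2 fun x hx => ?_)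
    have h2 : MulAut.conjNormal (H := pCore p G) x ∈ φ.ker :=
      congrArg Units.val (MonoidHom.mem_ker.1 hx)
    obtain ⟨k, hk⟩ := LocalEven.isPGroup_iff_mem.1 hφ _ h2
    rw [← map_pow] at hk
    have h3 : x ^ p ^ k ∈ pCore p G := hc fun y hy => by
      have := congrArg Subtype.val (DFunLike.congr_fun hk ⟨y, hy⟩)
      rw [MulAut.conjNormal_apply] at this
      exact (mul_inv_eq_iff_eq_mul.1 this).symm
    obtain ⟨j, hj⟩ := LocalEven.isPGroup_iff_mem.1 (Core.pCore_isPGroup p) _ h3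
    exact ⟨k + j, by rw [pow_add, pow_mul, hj]⟩
  intro h
  have h2 := h.trans (index_dvd_of_le h1)
  rw [index_ker] at h2
  have h3 := h2.trans (card_subgroup_dvd_card _)
  rw [PGrp.card_GL_two, show p ^ 2 - p = p * (p - 1) by rw [Nat.mul_sub, mul_one, sq], sq p,
    mul_left_comm, Nat.mul_dvd_mul_iff_left hp.pos] at h3
  rcases hp.dvd_mul.1 h3 with h4 | h4
  · exact hp.one_lt.ne' (Nat.dvd_one.1 ((Nat.dvd_sub_iff_right (Nat.mul_pos hp.pos hp.pos)
      (dvd_mul_right p p)).1 h4))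
  · exact (Nat.le_of_dvd (by have := hp.one_lt; omega) h4).not_gt (by have := hp.pos; omega)

theorem ser_top_of_pRankLE_two [Finite G] [Fact p.Prime] (hp2 : p ≠ 2) (hG : IsPConstrained p G)
    (hr : PRankLE p 2 G) : Ser (p ^ 3) (⊤ : Subgroup G) := by
  have hp : p.Prime := Fact.out
  have hr' := BG.Rank.pRankLE_subgroup ((BG.Rank.pRankLE_quotient_iff _
    (Core.not_dvd_card_pPrimeCore hp)).mpr hr) (pCore p _)
  have h1 := (ser_of_pRankLE_two hp2 _ _ rfl inferInstance (Core.pCore_isPGroup p) hr').step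
    (M := ⊤) inferInstance le_top fun h => not_sq_dvd_index_pCore hp2
      (Core.isPConstrained_iff.1 hG) hr' ((pow_dvd_pow p (by norm_num : 2 ≤ 3)).trans
        (by rwa [relIndex_top_right] at h))
  refine h1.comap (QuotientGroup.mk' (pPrimeCore p G)) ?_
  rw [QuotientGroup.ker_mk']
  refine Ser.bot.step inferInstance bot_le fun h => Core.not_dvd_card_pPrimeCore (G := G) hp ?_
  rw [relIndex_bot_left] at h
  exact (dvd_pow_self p (by norm_num)).trans h

end Cfsg.Agent.PLocal
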