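import Mathlib
import Cfsg.Agent.PLocal.PStable
import Cfsg.Agent.Transfer.Replacement

/-! The subgroup `W(S)` (stable normal closure of `Ω₁(Z(S))`). -/

set_option autoImplicit false

namespace Cfsg.Agent.PLocal

open Subgroup Cfsg Cfsg.Agent
open scoped commutatorElement

universe u

variable {p : ℕ}

theorem map_thompsonSubgroup {S H : Type*} [Group S] [Group H] (τ : S →* H)
    (hτ : Function.Injective τ) : (thompsonSubgroup p S).map τ = jn p τ.range := by
  rw [← jn_top, map_jn _ hτ, MonoidHom.range_eq_map]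

theorem map_omegaCenterThompson' {S H : Type*} [Group S] [Group H] (τ : S →* H)
    (hτ : Function.Injective τ) :
    (omegaCenterThompson p S).map τ = omegaOne p (zOf (jn p τ.range)) := by
  rw [omegaCenterThompson, PGrp.map_omegaOne_of_injective _ hτ, ← jn_top]
  change omegaOne p ((zOf _).map _) = _
  rw [map_zOf _ (by rw [(MonoidHom.ker_eq_bot_iff _).2 hτ]; exact disjoint_bot_right), map_jn _ hτ,
    MonoidHom.range_eq_map]

theorem isStableEmbedding_comp {S S' H : Type u} [Group S] [Group S'] [Group H] {τ : S' →* H}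
    (h : IsStableEmbedding p τ) (η : S ≃* S') : IsStableEmbedding p (τ.comp η.toMonoidHom) := by
  obtain ⟨h1, h2, h3, h4, h5, h6⟩ := h
  have hi : Function.Injective (τ.comp η.toMonoidHom) := h1.comp η.injective
  have hr : (τ.comp η.toMonoidHom).range = τ.range := by
    rw [MonoidHom.range_comp, MonoidHom.range_eq_top.2 η.surjective, ← MonoidHom.range_eq_map]
  refine ⟨hi, h2, hr ▸ h3, h4, ?_, ?_⟩
  · rw [map_thompsonSubgroup _ hi, hr, ← map_thompsonSubgroup _ h1]; exact h5
  · rw [map_omegaCenterThompson' _ hi, hr, ← map_omegaCenterThompson' _ h1]; exact h6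

section basic

variable {S : Type u} [Group S]

theorem omegaOne_center_le_ws : omegaOne p (center S) ≤ stableNormalClosure p S :=
  le_sInf fun _ h => h.1

theorem ws_le {W : Subgroup S} (h1 : omegaOne p (center S) ≤ W)
    (h2 : ∀ (H : Type u) [Group H] (τ : S →* H), IsStableEmbedding p τ → (W.map τ).Normal) :
    stableNormalClosure p S ≤ W := sInf_le ⟨h1, h2⟩

theorem ws_map_normal {H : Type u} [Group H] {τ : S →* H} (h : IsStableEmbedding p τ) :
    ((stableNormalClosure p S).map τ).Normal := by
  refine ⟨?_⟩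
  rintro _ ⟨w, hw, rfl⟩ g
  have key : ∀ W ∈ {W : Subgroup S | omegaOne p (center S) ≤ W ∧ ∀ (H : Type u) [Group H]
      (τ : S →* H), IsStableEmbedding p τ → (W.map τ).Normal}, g * τ w * g⁻¹ ∈ W.map τ :=
    fun W hW => (hW.2 H τ h).conj_mem _ (mem_map_of_mem τ (sInf_le hW hw)) g
  by_cases hne : {W : Subgroup S | omegaOne p (center S) ≤ W ∧ ∀ (H : Type u) [Group H]
      (τ : S →* H), IsStableEmbedding p τ → (W.map τ).Normal}.Nonempty
  · obtain ⟨W, hW⟩ := hne
    obtain ⟨v, -, hv⟩ := key W hW
    refine ⟨v, mem_sInf.2 fun U hU => ?_, hv⟩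
    obtain ⟨v', hv', e⟩ := key U hU
    rwa [← h.1 (e.trans hv.symm)]
  · exfalso
    haveI := h.2.1
    haveI : Finite S := Finite.of_injective τ h.1
    refine hne ⟨omegaCenterThompson p S, ?_, fun H _ τ hτ => ?_⟩
    · refine PGrp.omegaOne_le_iff.2 fun x hx hxp => PGrp.mem_omegaOne ⟨?_, center_le_centralizer _ hx⟩ hxp
      obtain ⟨A, hA⟩ := abFam_nonempty p (⊤ : Subgroup S)
      rw [← jn_top]
      exact abFam.le_jn hA (abFam.mem_of_centralizes hA trivial (center_le_centralizer _ hx) hxp)
    · rw [map_omegaCenterThompson' _ hτ.1]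
      have := hτ.2.2.2.2.1
      rw [map_thompsonSubgroup _ hτ.1] at this
      haveI : (zOf (jn p τ.range)).Normal := Core.normal_of_le_normalizer
        (le_normalizer_of_normal.trans (normalizer_le_normalizer_zOf _))
      exact PGrp.omegaOne_normal _

theorem ws_le_omegaCenterThompson [Finite S] :
    stableNormalClosure p S ≤ omegaCenterThompson p S := by
  refine ws_le ?_ fun H _ τ hτ => ?_
  · refine PGrp.omegaOne_le_iff.2 fun x hx hxp => PGrp.mem_omegaOne ⟨?_, center_le_centralizer _ hx⟩ hxp
    obtain ⟨A, hA⟩ := abFam_nonempty p (⊤ : Subgroup S)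
    rw [← jn_top]
    exact abFam.le_jn hA (abFam.mem_of_centralizes hA trivial (center_le_centralizer _ hx) hxp)
  · rw [map_omegaCenterThompson' _ hτ.1]
    have := hτ.2.2.2.2.1
    rw [map_thompsonSubgroup _ hτ.1] at this
    haveI : (zOf (jn p τ.range)).Normal := Core.normal_of_le_normalizer
      (le_normalizer_of_normal.trans (normalizer_le_normalizer_zOf _))
    exact PGrp.omegaOne_normal _

theorem le_map_ws {S' : Type u} [Group S'] (η : S ≃* S') :
    stableNormalClosure p S' ≤ (stableNormalClosure p S).map η.toMonoidHom := by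
  refine ws_le ?_ fun H _ τ hτ => ?_
  · refine le_trans ?_ (map_mono omegaOne_center_le_ws)
    rw [PGrp.map_omegaOne_of_injective _ η.injective]
    refine PGrp.omegaOne_mono fun x hx => ⟨η.symm x, mem_center_iff.2 fun g => η.injective ?_, by simp⟩
    simpa using mem_center_iff.1 hx (η g)
  · rw [map_map]
    exact ws_map_normal (isStableEmbedding_comp hτ η)

theorem map_ws {S' : Type u} [Group S'] (η : S ≃* S') :
    (stableNormalClosure p S).map η.toMonoidHom = stableNormalClosure p S' := by
  refine le_antisymm ?_ (le_map_ws η)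
  refine (map_mono (le_map_ws η.symm)).trans (le_of_eq ?_)
  rw [map_map]
  convert Subgroup.map_id _
  ext; simp

theorem ws_characteristic : (stableNormalClosure p S).Characteristic :=
  characteristic_iff_map_eq.2 fun φ => map_ws φ

theorem ws_elementary [Finite S] : IsElementaryAbelian p (stableNormalClosure p S) :=
  LocalEven.elemAb_of_le (LocalEven.isElementaryAbelian_omegaOne (zOf_comm _))
    ws_le_omegaCenterThompson

theorem ws_ne_bot [Finite S] [Fact p.Prime] (hS : IsPGroup p S) [Nontrivial S] :
    stableNormalClosure p S ≠ ⊥ := fun h =>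
  LocalEven.omegaOne_ne_bot (hS.to_subgroup (center S))
    ((nontrivial_iff_ne_bot _).1 hS.center_nontrivial) (le_bot_iff.1 (h ▸ omegaOne_center_le_ws))

end basic

theorem Quad.of_mul_centralizer {G : Type*} [Group G] {V : Subgroup G} {c s : G}
    (hc : c ∈ centralizer (V : Set G)) (hs : s ∈ normalizer (V : Set G)) (h : Quad V (c * s)) :
    Quad V s := by
  have key : ∀ v ∈ V, ⁅c * s, v⁆ = ⁅s, v⁆ := fun v hv => by
    have := hc _ (LocalEven.conj_mem_of_mem_normalizer hs hv)
    calc ⁅c * s, v⁆ = c * (s * v * s⁻¹) * c⁻¹ * v⁻¹ := by rw [commutatorElement_def]; group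
      _ = ⁅s, v⁆ := by rw [← this, commutatorElement_def]; group
  intro v hv
  have h1 := h v hv
  rwa [key v hv, key ⁅s, v⁆
    (V.mul_mem (LocalEven.conj_mem_of_mem_normalizer hs hv) (V.inv_mem hv))] at h1

/-- conjugates of a quadratic element of `O_p(G mod C(V))` are, modulo `C(V)`, quadratic elements
of a Sylow subgroup -/
theorem exists_quad_mem_sylow {G : Type*} [Group G] [Finite G] [Fact p.Prime] (T : Sylow p G)
    {V : Subgroup G} [V.Normal] {a : G} (hq : Quad V a)
    (ha : (QuotientGroup.mk a : G ⧸ centralizer (V : Set G)) ∈ pCore p _) (g : G) :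
    ∃ c ∈ centralizer (V : Set G), ∃ s ∈ (T : Subgroup G), Quad V s ∧ g * a * g⁻¹ = c * s := by
  have h1 := le_sup_of_pow_mem T (K := (pCore p (G ⧸ centralizer (V : Set G))).comap
    (QuotientGroup.mk' _)) (C := centralizer (V : Set G)) fun k hk => exists_pow_mem_of_mk_mem hk
  obtain ⟨c, hc, s, hs, e⟩ := (Core.mem_sup_of_le_normalizer le_normalizer_of_normal).1
    (h1 (Normal.conj_mem inferInstance a ha g))
  refine ⟨c, hc, s, hs.1, Quad.of_mul_centralizer hc (le_normalizer_of_normal (K := ⊤) trivial) ?_, e⟩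
  rw [← e]
  exact hq.conj (le_normalizer_of_normal (K := ⊤) trivial)

theorem Quad.of_map {G G' : Type*} [Group G] [Group G'] {f : G →* G'} (hf : Function.Injective f)
    {V : Subgroup G} {a : G} (h : Quad (V.map f) (f a)) : Quad V a := fun v hv => hf (by
  rw [map_commutatorElement, map_commutatorElement, map_one]; exact h _ (mem_map_of_mem f hv))

theorem ws_quad {S : Type u} [Group S] [Finite S] [Fact p.Prime] {x : S}
    (hq : Quad (stableNormalClosure p S) x) : x ∈ centralizer (stableNormalClosure p S : Set S) := by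
  have key : stableNormalClosure p S ≤ stableNormalClosure p S ⊓
      centralizer {y : S | Quad (stableNormalClosure p S) y} := by
    refine ws_le (le_inf omegaOne_center_le_ws (PGrp.omegaOne_le.trans (center_le_centralizer _)))
      fun H _ τ hτ => ⟨?_⟩
    haveI := hτ.2.1
    haveI := ws_map_normal hτ
    obtain ⟨T, hT⟩ := hτ.2.2.1
    rintro _ ⟨w, ⟨hw, hwc⟩, rfl⟩ g
    obtain ⟨v, hv, e⟩ := Normal.conj_mem inferInstance _ (mem_map_of_mem τ hw) g
    refine ⟨v, ⟨hv, fun y hy => hτ.1 ?_⟩, e⟩
    have h1 : Quad ((stableNormalClosure p S).map τ) (τ y) := Quad.map τ hy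
    obtain ⟨c, hc, s, hs, h2, h3⟩ := exists_quad_mem_sylow T h1 (hτ.2.2.2.2.2 _
      (map_mono ws_le_omegaCenterThompson) _
      (h1.commutator_zpowers (le_normalizer_of_normal (K := ⊤) trivial))) g⁻¹
    rw [hT] at hs
    obtain ⟨s, rfl⟩ := hs
    have h4 := congrArg τ (hwc s (Quad.of_map hτ.1 h2))
    have h5 := hc _ (mem_map_of_mem τ hw)
    rw [map_mul, map_mul] at h4 ⊢
    rw [e]
    calc τ y * (g * τ w * g⁻¹) = g * ((g⁻¹ * τ y * g⁻¹⁻¹) * τ w) * g⁻¹ := by group
      _ = g * (τ w * (g⁻¹ * τ y * g⁻¹⁻¹)) * g⁻¹ := by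
        rw [h3, mul_assoc c, h4, ← mul_assoc c, ← h5, mul_assoc (τ w)]
      _ = _ := by group
  exact fun w hw => ((key hw).2 x hq).symm

variable {G : Type u} [Group G] [Finite G] [Fact p.Prime]

theorem ws_quad_of {T : Subgroup G} {x : G} (hx : x ∈ T)
    (hq : Quad ((stableNormalClosure p T).map T.subtype) x) :
    x ∈ centralizer (((stableNormalClosure p T).map T.subtype : Subgroup G) : Set G) := by
  have := ws_quad (x := (⟨x, hx⟩ : T)) (Quad.of_map T.subtype_injective hq)
  rintro _ ⟨w, hw, rfl⟩
  exact congrArg Subtype.val (this w hw)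

theorem mem_pCore_of_isPStableOnSection (hc : centralizer (pCore p G : Set G) ≤ pCore p G)
    (h : IsPStableOnSection p (pCore p G) ((frattini (pCore p G)).map (pCore p G).subtype)) {a : G}
    (hq : Quad (pCore p G) a) : a ∈ pCore p G := by
  obtain ⟨D, hD, -, ⟨k, hk⟩, ha⟩ := h a (by
    rw [hq.commutator_zpowers (le_normalizer_of_normal (K := ⊤) trivial)]; exact bot_le)
  refine Core.le_pCore hD ?_ ha
  rw [LocalEven.isPGroup_iff_mem]
  intro d hd
  haveI : (sectionKernel (pCore p G) ((frattini (pCore p G)).map (pCore p G).subtype)).Normal := by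
    unfold sectionKernel; infer_instance
  have h1 := PGrp.pow_mem_of_relIndex_eq le_normalizer_of_normal hk hd
  obtain ⟨j, hj⟩ := exists_pow_mem_centralizer_of_frattini (Core.pCore_isPGroup p) h1
  obtain ⟨i, hi⟩ := LocalEven.isPGroup_iff_mem.1 (Core.pCore_isPGroup p) _ (hc hj)
  exact ⟨k + j + i, by rwa [pow_add, pow_add, pow_mul, pow_mul]⟩

theorem ws_normal (hst : IsActionPStable p G) (hc : centralizer (pCore p G : Set G) ≤ pCore p G)
    (S : Sylow p G) :
    ((stableNormalClosure p (S : Subgroup G)).map (S : Subgroup G).subtype).Normal := by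
  obtain ⟨h1, h2, h3⟩ := hst
  set W := (stableNormalClosure p (S : Subgroup G)).map (S : Subgroup G).subtype with hW
  have hWe : IsElementaryAbelian p W := LocalEven.elemAb_map ws_elementary _
  have hSJ : (S : Subgroup G) ≤ normalizer (thompsonSubgroupOf p (S : Subgroup G) : Set G) :=
    le_normalizer.trans (Transfer.normalizer_le_normalizer_thompsonSubgroupOf _)
  have hOS : pCore p G ≤ S := Core.pCore_le_sylow S
  have hNW : normalizer (thompsonSubgroupOf p (S : Subgroup G) : Set G) ≤ normalizer (W : Set G) := by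
    have hτ : IsStableEmbedding p (inclusion hSJ) := by
      refine ⟨inclusion_injective _, inferInstance, ⟨S.subtype hSJ, (inclusion_range _).symm⟩, ?_, ?_,
        fun V _ hV => h3 S V ?_⟩
      · intro x hx
        refine Core.pCore_subgroupOf_le p _ (hc fun y hy => ?_)
        exact congrArg Subtype.val (hx ⟨y, hSJ (hOS hy)⟩ (Core.pCore_subgroupOf_le p _ hy))
      · have : (thompsonSubgroup p (S : Subgroup G)).map (inclusion hSJ) =
            (thompsonSubgroupOf p (S : Subgroup G)).subgroupOf _ := by
          rw [← LocalEven.map_subtype_subgroupOf ((thompsonSubgroup p (S : Subgroup G)).map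
            (inclusion hSJ)), map_map, subtype_comp_inclusion]
          rfl
        rw [this]; infer_instance
      · rw [← subtype_comp_inclusion hSJ, ← map_map]; exact map_mono hV
    haveI := ws_map_normal hτ
    have := LocalEven.le_normalizer_map_subtype ((stableNormalClosure p (S : Subgroup G)).map
      (inclusion hSJ))
    rwa [map_map, subtype_comp_inclusion] at this
  have hSW : (S : Subgroup G) ≤ normalizer (W : Set G) := hSJ.trans hNW
  have hWO : W ≤ pCore p G := fun w hw => mem_pCore_of_isPStableOnSection hc h2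
    (quad_of_abelian_normalized hWe.1 (hOS.trans hSW) hw)
  have hcj : ∀ g, W ≤ centralizer (LocalEven.cj g W : Set G) := by
    intro g
    rw [le_centralizer_iff]
    intro x hx
    refine ws_quad_of (hOS (LocalEven.cj_le_of_mem_normalizer
      (le_normalizer_of_normal (K := ⊤) trivial) hWO hx)) (quad_of_abelian_normalized
        (LocalEven.isMulCommutative_cj g hWe.1) (hWO.trans ?_) hx)
    rw [← LocalEven.cj_normalizer, ← LocalEven.cj_eq_of_normal g (pCore p G)]
    exact LocalEven.cj_mono g (hOS.trans hSW)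
  set V := normalClosure (W : Set G) with hV
  have hWV : W ≤ V := le_normalClosure
  have hVe : IsElementaryAbelian p V := by
    rw [hV, LocalEven.normalClosure_eq_iSup_cj]
    refine LocalEven.elemAb_iSup (fun g => (LocalEven.elemAb_cj hWe g).2) fun g k => ?_
    have := LocalEven.cj_mono g (hcj (g⁻¹ * k))
    rwa [LocalEven.cj_centralizer, LocalEven.cj_cj, mul_inv_cancel_left] at this
  have hVq : ∀ a, Quad V a → a ∈ centralizer (V : Set G) := by
    intro a ha
    have h4 : ∀ g, a ∈ centralizer (LocalEven.cj g W : Set G) := by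
      intro g
      obtain ⟨c, hc, s, hs, h5, h6⟩ := exists_quad_mem_sylow S ha (h1 V hVe a
        (ha.commutator_zpowers (le_normalizer_of_normal (K := ⊤) trivial))) g⁻¹
      rw [← LocalEven.cj_centralizer, ← inv_inv g, LocalEven.mem_cj_inv, h6]
      exact mul_mem (centralizer_le hWV hc) (ws_quad_of hs (h5.mono hWV))
    rw [← zpowers_le, le_centralizer_iff, hV, LocalEven.normalClosure_eq_iSup_cj, iSup_le_iff]
    exact fun g => le_centralizer_iff.1 (zpowers_le.2 (h4 g))
  have hJ : thompsonSubgroupOf p (S : Subgroup G) ≤ centralizer (V : Set G) := by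
    by_contra hne
    obtain ⟨B, -, h4, h5⟩ := Transfer.exists_quadratic_mem_maxEA
      ((normalClosure_le_normal hWO).trans hOS) hVe le_normalizer_of_normal hne
    exact h5 fun b hb => hVq b (Quad.of_commutator h4 hb)
  have hsyl := LocalEven.sylow_inf_normal S (centralizer (V : Set G))
  refine Core.normal_of_le_normalizer ?_
  rw [← hsyl.frattini_sup le_top le_normalizer_of_normal]
  refine sup_le ((centralizer_le hWV).trans (centralizer_le_normalizer _)) (inf_le_right.trans ?_)
  refine (Transfer.normalizer_le_normalizer_thompsonSubgroupOf (p := p) _).trans ?_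
  rwa [Transfer.thompsonSubgroupOf_eq_of_le (le_inf (Transfer.thompsonSubgroupOf_le _) hJ)
    inf_le_left]

theorem relIndex_comap_mk' {X : Type*} [Group X] (C : Subgroup X) [C.Normal] (K : Subgroup (X ⧸ C)) :
    C.relIndex (K.comap (QuotientGroup.mk' C)) = Nat.card K := by
  have := relIndex_ker (K.comap (QuotientGroup.mk' C)) (QuotientGroup.mk' C)
  rwa [QuotientGroup.ker_mk', map_comap_eq_self_of_surjective (QuotientGroup.mk'_surjective _)] at this

theorem NoQuadPair.isPStableOnSection {G : Type*} [Group G] [Finite G] (h : NoQuadPair p G)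
    {K N : Subgroup G} [K.Normal] [N.Normal] (hK : IsPGroup p K) : IsPStableOnSection p K N := by
  intro a ha
  have h1 := (h.quotient N).isPStableOn (K.map (QuotientGroup.mk' N)) (hK.map _) (QuotientGroup.mk a)
    (by
      have : zpowers (QuotientGroup.mk a : G ⧸ N) = (zpowers a).map (QuotientGroup.mk' N) :=
        (MonoidHom.map_zpowers (QuotientGroup.mk' N) a).symm
      rw [this, ← map_commutator, ← map_commutator, Subgroup.map_eq_bot_iff, QuotientGroup.ker_mk']
      exact ha)
  refine ⟨((pCore p _).comap (QuotientGroup.mk' _)).comap (QuotientGroup.mk' N), inferInstance,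
    comap_mono (QuotientGroup.le_comap_mk' _ _), ?_, h1⟩
  obtain ⟨k, hk⟩ := IsPGroup.iff_card.1 (Core.pCore_isPGroup (G := (G ⧸ N) ⧸
    centralizer ((K.map (QuotientGroup.mk' N) : Subgroup (G ⧸ N)) : Set (G ⧸ N))) p)
  refine ⟨k, ?_⟩
  rw [sectionKernel, relIndex_comap, map_comap_eq_self_of_surjective (QuotientGroup.mk'_surjective N),
    ← hk]
  exact relIndex_comap_mk' _ _

theorem NoQuadPair.isActionPStable {G : Type*} [Group G] [Finite G] (h : NoQuadPair p G) :
    IsActionPStable p G :=
  ⟨fun V _ hV => h.isPStableOn V (LocalEven.isPGroup_of_elemAb hV),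
    h.isPStableOnSection (Core.pCore_isPGroup p), fun S V _ hV => (h.subgroup _).isPStableOn V
      (Comp2.isPGroup_of_map_subtype (S.isPGroup'.to_le (hV.trans (map_subtype_le _))))⟩

omit [Finite G] in
theorem isCharPFunctor_ws :
    IsCharPFunctor p (fun (Q : Type u) [Group Q] => stableNormalClosure p Q) :=
  ⟨fun _ _ _ hQ _ => ws_ne_bot hQ, fun _ _ _ _ _ _ φ => map_ws φ⟩

end Cfsg.Agent.PLocal
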